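import Mathlib
import Cfsg.Prelude.Def_SporadicB

/-!
# A non-split double cover of the alternating group of degree 8

Eight anticommuting involutions `e i` in the `16 × 16` matrices over `𝔽₃`; the group of pairs
`(σ, M)` with `σ` even and `M e i M⁻¹ = e (σ i)`.  The element `u i j = e i - e j` has square `-1` and acts on the `e`'s
as minus the transposition `(i j)`.
-/

set_option autoImplicit false

namespace Cfsg.Agent.Lib.DoubleCover

open Equiv Equiv.Perm

abbrev Mat := Matrix (Fin 16) (Fin 16) (ZMod 3)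

def piTab : Fin 8 → Fin 16 → Fin 16 :=
  ![![1, 0, 3, 2, 5, 4, 7, 6, 9, 8, 11, 10, 13, 12, 15, 14], ![0, 1, 2, 3, 4, 5, 6, 7, 8, 9, 10, 11, 12, 13, 14, 15], ![3, 2, 1, 0, 7, 6, 5, 4, 11, 10, 9, 8, 15, 14, 13, 12], ![7, 6, 5, 4, 3, 2, 1, 0, 15, 14, 13, 12, 11, 10, 9, 8], ![13, 12, 15, 14, 9, 8, 11, 10, 5, 4, 7, 6, 1, 0, 3, 2], ![5, 4, 7, 6, 1, 0, 3, 2, 13, 12, 15, 14, 9, 8, 11, 10], ![9, 8, 11, 10, 13, 12, 15, 14, 1, 0, 3, 2, 5, 4, 7, 6], ![15, 14, 13, 12, 11, 10, 9, 8, 7, 6, 5, 4, 3, 2, 1, 0]]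

def epsTab : Fin 8 → Fin 16 → ZMod 3 :=
  ![![1, 1, 1, 1, 1, 1, 1, 1, 1, 1, 1, 1, 1, 1, 1, 1], ![1, 2, 1, 2, 1, 2, 1, 2, 1, 2, 1, 2, 1, 2, 1, 2], ![1, 2, 2, 1, 1, 2, 2, 1, 1, 2, 2, 1, 1, 2, 2, 1], ![1, 2, 1, 2, 2, 1, 2, 1, 1, 2, 1, 2, 2, 1, 2, 1], ![1, 2, 2, 1, 2, 1, 1, 2, 1, 2, 2, 1, 2, 1, 1, 2], ![1, 2, 2, 1, 2, 1, 1, 2, 2, 1, 1, 2, 1, 2, 2, 1], ![1, 2, 2, 1, 1, 2, 2, 1, 2, 1, 1, 2, 2, 1, 1, 2], ![1, 2, 1, 2, 1, 2, 1, 2, 2, 1, 2, 1, 2, 1, 2, 1]]

def e (i : Fin 8) : Mat := Matrix.of fun a b => if b = piTab i a then epsTab i a else 0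

theorem e_sq : ∀ i, e i * e i = 1 := by decide +kernel

theorem e_anti : ∀ i j, i ≠ j → e i * e j = -(e j * e i) := by decide +kernel

theorem one_add_one_mat : (1 : Mat) + 1 = -1 := by decide +kernel

def u (i j : Fin 8) : Mat := e i - e j

theorem u_sq {i j : Fin 8} (h : i ≠ j) : u i j * u i j = -1 := by
  have h1 : u i j * u i j = e i * e i - e i * e j - e j * e i + e j * e j := by
    unfold u; noncomm_ring
  rw [h1, e_sq, e_sq, e_anti i j h, ← one_add_one_mat]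
  noncomm_ring

theorem u_e {i j : Fin 8} (h : i ≠ j) (k : Fin 8) : u i j * e k = -(e (swap i j k) * u i j) := by
  by_cases hki : k = i
  · subst hki
    rw [swap_apply_left]
    unfold u
    have h1 : e j * e k = -(e k * e j) := e_anti j k (Ne.symm h)
    rw [sub_mul, mul_sub, e_sq, e_sq, h1]
    noncomm_ring
  by_cases hkj : k = j
  · subst hkj
    rw [swap_apply_right]
    unfold u
    rw [sub_mul, mul_sub, e_sq, e_sq, e_anti i k h]
    noncomm_ring
  · rw [swap_apply_of_ne_of_ne hki hkj]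
    unfold u
    rw [sub_mul, mul_sub, e_anti i k (Ne.symm hki), e_anti j k (Ne.symm hkj)]
    noncomm_ring

/-- The lift of a product of two transpositions. -/
def liftU {i j k l : Fin 8} (h1 : i ≠ j) (h2 : k ≠ l) : Matˣ where
  val := u i j * u k l
  inv := u k l * u i j
  val_inv := by
    have : u i j * u k l * (u k l * u i j) = u i j * (u k l * u k l) * u i j := by noncomm_ring
    rw [this, u_sq h2, mul_neg, mul_one, neg_mul, u_sq h1, neg_neg]
  inv_val := by
    have : u k l * u i j * (u i j * u k l) = u k l * (u i j * u i j) * u k l := by noncomm_ring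
    rw [this, u_sq h1, mul_neg, mul_one, neg_mul, u_sq h2, neg_neg]

theorem liftU_e {i j k l : Fin 8} (h1 : i ≠ j) (h2 : k ≠ l) (t : Fin 8) :
    (liftU h1 h2 : Mat) * e t = e ((swap i j * swap k l) t) * (liftU h1 h2 : Mat) := by
  show u i j * u k l * e t = e (swap i j (swap k l t)) * (u i j * u k l)
  calc u i j * u k l * e t = u i j * (u k l * e t) := by noncomm_ring
    _ = u i j * (-(e (swap k l t) * u k l)) := by rw [u_e h2]
    _ = -((u i j * e (swap k l t)) * u k l) := by noncomm_ring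
    _ = -((-(e (swap i j (swap k l t)) * u i j)) * u k l) := by rw [u_e h1]
    _ = _ := by noncomm_ring

/-- The double cover. -/
def Cov : Subgroup (alternatingGroup (Fin 8) × Matˣ) where
  carrier := {p | ∀ i, (p.2 : Mat) * e i = e ((p.1 : Perm (Fin 8)) i) * (p.2 : Mat)}
  mul_mem' := by
    intro a b ha hb i
    have h1 := ha ((b.1 : Perm (Fin 8)) i)
    have h2 := hb i
    show ((a.2 : Mat) * (b.2 : Mat)) * e i = e ((a.1 : Perm (Fin 8)) ((b.1 : Perm (Fin 8)) i)) * ((a.2 : Mat) * (b.2 : Mat))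
    rw [mul_assoc, h2, ← mul_assoc, h1, mul_assoc]
  one_mem' := by
    intro i
    simp
  inv_mem' := by
    intro a ha i
    have h1 := ha ((a.1 : Perm (Fin 8))⁻¹ i)
    have e1 : (a.1 : Perm (Fin 8)) ((a.1 : Perm (Fin 8))⁻¹ i) = i := by simp
    rw [e1] at h1
    show ((a.2⁻¹ : Matˣ) : Mat) * e i = e ((a.1 : Perm (Fin 8))⁻¹ i) * ((a.2⁻¹ : Matˣ) : Mat)
    calc ((a.2⁻¹ : Matˣ) : Mat) * e i
        = ((a.2⁻¹ : Matˣ) : Mat) * (e i * ((a.2 : Mat) * ((a.2⁻¹ : Matˣ) : Mat))) := by simp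
      _ = ((a.2⁻¹ : Matˣ) : Mat) * ((e i * (a.2 : Mat)) * ((a.2⁻¹ : Matˣ) : Mat)) := by rw [mul_assoc]
      _ = ((a.2⁻¹ : Matˣ) : Mat) * (((a.2 : Mat) * e ((a.1 : Perm (Fin 8))⁻¹ i)) * ((a.2⁻¹ : Matˣ) : Mat)) := by rw [h1]
      _ = e ((a.1 : Perm (Fin 8))⁻¹ i) * ((a.2⁻¹ : Matˣ) : Mat) := by
        rw [mul_assoc (a.2 : Mat), ← mul_assoc, Units.inv_mul, one_mul]

instance : Finite Mat := inferInstanceAs (Finite (Fin 16 → Fin 16 → ZMod 3))

instance : Finite ↥Cov := inferInstance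

/-- The projection to the alternating group. -/
def covPi : ↥Cov →* alternatingGroup (Fin 8) := (MonoidHom.fst _ _).comp Cov.subtype

/-- `L k` : products of the `e`'s which are diagonal. -/
def listD : Fin 4 → List (Fin 8) :=
  ![[0, 1, 2, 3, 5], [3, 4, 5, 7], [0, 1, 4, 5, 6], [1]]

def tabD : Fin 4 → Fin 16 → ZMod 3 :=
  ![![1, 1, 1, 1, 1, 1, 1, 1, 2, 2, 2, 2, 2, 2, 2, 2], ![2, 2, 2, 2, 1, 1, 1, 1, 2, 2, 2, 2, 1, 1, 1, 1], ![1, 1, 2, 2, 1, 1, 2, 2, 1, 1, 2, 2, 1, 1, 2, 2], ![1, 2, 1, 2, 1, 2, 1, 2, 1, 2, 1, 2, 1, 2, 1, 2]]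

theorem prod_D : ∀ k, ((listD k).map e).prod = Matrix.diagonal (tabD k) := by decide +kernel

theorem tabD_sep : ∀ a b : Fin 16, a ≠ b → ∃ k, tabD k a - tabD k b ≠ 0 := by decide +kernel

theorem e_entry : ∀ i a, e i a (piTab i a) ≠ 0 := by decide +kernel

theorem desc : ∀ a : Fin 16, a ≠ 0 → ∃ i, piTab i a < a := by decide +kernel

/-- A matrix commuting with all the `e i` is scalar. -/
theorem scalar_of_comm (M : Mat) (h : ∀ i, M * e i = e i * M) : ∃ c : ZMod 3, M = c • (1 : Mat) := by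
  have hc : ∀ l : List (Fin 8), M * (l.map e).prod = (l.map e).prod * M := by
    intro l
    induction l with
    | nil => simp
    | cons a t ih =>
      simp only [List.map_cons, List.prod_cons]
      rw [← mul_assoc, h a, mul_assoc, ih, mul_assoc]
  have hoff : ∀ a b : Fin 16, a ≠ b → M a b = 0 := by
    intro a b hab
    obtain ⟨k, hk⟩ := tabD_sep a b hab
    have h1 := hc (listD k)
    rw [prod_D] at h1
    have h2 := congrFun (congrFun h1 a) b
    rw [Matrix.mul_diagonal, Matrix.diagonal_mul] at h2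
    have h3 : (tabD k a - tabD k b) * M a b = 0 := by
      rw [sub_mul, ← h2]; ring
    exact (mul_eq_zero.mp h3).resolve_left hk
  have hdiag : ∀ i a, M (piTab i a) (piTab i a) = M a a := by
    intro i a
    have h1 := congrFun (congrFun (h i) a) (piTab i a)
    rw [Matrix.mul_apply, Matrix.mul_apply] at h1
    rw [Finset.sum_eq_single a, Finset.sum_eq_single (piTab i a)] at h1
    · have h4 : M a a * e i a (piTab i a) = M (piTab i a) (piTab i a) * e i a (piTab i a) := by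
        rw [h1]; ring
      exact (mul_right_cancel₀ (e_entry i a) h4).symm
    · intro b _ hb
      have : e i a b = 0 := by
        simp [e, hb]
      rw [this, zero_mul]
    · simp
    · intro b _ hb
      rw [hoff a b (Ne.symm hb), zero_mul]
    · simp
  have hall : ∀ a : Fin 16, M a a = M 0 0 := by
    have key : ∀ n : ℕ, ∀ a : Fin 16, a.val = n → M a a = M 0 0 := by
      intro n
      induction n using Nat.strong_induction_on with
      | _ n ih =>
        intro a ha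
        by_cases h0 : a = 0
        · rw [h0]
        · obtain ⟨i, hi⟩ := desc a h0
          rw [← hdiag i a]
          exact ih _ (by rw [← ha]; exact hi) _ rfl
    exact fun a => key a.val a rfl
  refine ⟨M 0 0, ?_⟩
  ext a b
  by_cases hab : a = b
  · subst hab
    simp [hall a]
  · rw [hoff a b hab]
    simp [Matrix.one_apply_ne hab]

end Cfsg.Agent.Lib.DoubleCover
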