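import Mathlib
import Cfsg.Agent.Lib.DoubleCover.A8

/-!
# A non-split double cover of the alternating group of degree 8: conclusions
-/

set_option autoImplicit false

namespace Cfsg.Agent.Lib.DoubleCover

open Equiv Equiv.Perm

theorem liftU_mem {i j k l : Fin 8} (h1 : i ≠ j) (h2 : k ≠ l) (hm : swap i j * swap k l ∈ alternatingGroup (Fin 8)) :
    ((⟨swap i j * swap k l, hm⟩, liftU h1 h2) : alternatingGroup (Fin 8) × Matˣ) ∈ Cov :=
  fun t => liftU_e h1 h2 t

theorem swap_mem {i j k l : Fin 8} (h1 : i ≠ j) (h2 : k ≠ l) : swap i j * swap k l ∈ alternatingGroup (Fin 8) :=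
  mul_mem_alternatingGroup_of_isSwap ⟨i, j, h1, rfl⟩ ⟨k, l, h2, rfl⟩

theorem covPi_surj : Function.Surjective covPi := by
  have key : ∀ n : ℕ, ∀ l : List (Perm (Fin 8)), l.length = n → (∀ g ∈ l, IsSwap g) → Even l.length →
      ∃ p : ↥Cov, ((covPi p : alternatingGroup (Fin 8)) : Perm (Fin 8)) = l.prod := by
    intro n
    induction n using Nat.strong_induction_on with
    | _ n ih =>
      intro l hl hs he
      match l, hl, hs, he with
      | [], _, _, _ => exact ⟨1, rfl⟩
      | [a], _, _, he => exact absurd he (by simp)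
      | a :: b :: t, hl, hs, he =>
        obtain ⟨i, j, h1, rfl⟩ := hs a (by simp)
        obtain ⟨k, m, h2, rfl⟩ := hs b (by simp)
        have hlen : t.length + 2 = n := by simpa using hl
        obtain ⟨q, hq⟩ := ih t.length (by omega) t rfl (fun g hg => hs g (by simp [hg])) (by
          have h3 : Even (t.length + 2) := by simpa using he
          exact (Nat.even_add.mp h3).mpr (by decide))
        refine ⟨⟨_, liftU_mem h1 h2 (swap_mem h1 h2)⟩ * q, ?_⟩
        rw [map_mul, Subgroup.coe_mul, hq]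
        simp [covPi, mul_assoc]
  intro σ
  obtain ⟨l, hl, hs⟩ := Equiv.Perm.truncSwapFactors (σ : Perm (Fin 8)) |>.out
  have he : Even l.length := by
    rw [← prod_list_swap_mem_alternatingGroup_iff_even_length hs, hl]
    exact σ.2
  obtain ⟨p, hp⟩ := key _ l rfl hs he
  exact ⟨p, Subtype.ext (hp.trans hl)⟩

/-- The central involution. -/
def zC : ↥Cov := ⟨(1, -1), by
  intro i
  simp⟩

theorem zC_mul (p : ↥Cov) : zC * p = p * zC := by
  apply Subtype.ext
  apply Prod.ext
  · show (1 : alternatingGroup (Fin 8)) * p.1.1 = p.1.1 * 1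
    simp
  · show (-1 : Matˣ) * p.1.2 = p.1.2 * (-1)
    simp

theorem zC_ne : zC ≠ 1 := by
  intro h
  have h1 := congrArg (fun p : ↥Cov => ((p.1.2 : Matˣ) : Mat)) h
  have h2 : (-1 : Mat) = 1 := by simpa [zC] using h1
  revert h2
  decide +kernel

theorem zC_sq : zC * zC = 1 := by
  apply Subtype.ext
  apply Prod.ext
  · show (1 : alternatingGroup (Fin 8)) * 1 = 1
    simp
  · show (-1 : Matˣ) * (-1) = 1
    simp

theorem ker_eq {p : ↥Cov} (h : covPi p = 1) : p = 1 ∨ p = zC := by
  have h1 : p.1.1 = 1 := h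
  have hmem := p.2
  have hc : ∀ i, ((p.1.2 : Matˣ) : Mat) * e i = e i * ((p.1.2 : Matˣ) : Mat) := by
    intro i
    have := hmem i
    rw [h1] at this
    simpa using this
  obtain ⟨c, hc'⟩ := scalar_of_comm _ hc
  have hc0 : c ≠ 0 := by
    rintro rfl
    have : ((p.1.2 : Matˣ) : Mat) = 0 := by rw [hc']; simp
    have h3 := p.1.2.mul_inv
    rw [this, zero_mul] at h3
    revert h3
    decide +kernel
  have hcases : ∀ c : ZMod 3, c ≠ 0 → c = 1 ∨ c = -1 := by decide
  rcases hcases c hc0 with rfl | rfl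
  · left
    apply Subtype.ext
    apply Prod.ext
    · exact h1
    · apply Units.ext
      rw [hc']; simp
  · right
    apply Subtype.ext
    apply Prod.ext
    · exact h1
    · apply Units.ext
      rw [hc']; simp [zC]

theorem center_iff {p : ↥Cov} : p ∈ Subgroup.center ↥Cov ↔ p = 1 ∨ p = zC := by
  constructor
  · intro hp
    apply ker_eq
    have h1 : covPi p ∈ Subgroup.center (alternatingGroup (Fin 8)) := by
      rw [Subgroup.mem_center_iff]
      intro g
      obtain ⟨q, rfl⟩ := covPi_surj g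
      rw [← map_mul, ← map_mul, (Subgroup.mem_center_iff.mp hp q)]
    rw [alternatingGroup.center_eq_bot (by simp)] at h1
    exact Subgroup.mem_bot.mp h1
  · rintro (rfl | rfl)
    · exact one_mem _
    · rw [Subgroup.mem_center_iff]
      intro q
      exact (zC_mul q).symm

theorem center_eq_ker : Subgroup.center ↥Cov = covPi.ker := by
  ext p
  rw [center_iff, MonoidHom.mem_ker]
  constructor
  · rintro (rfl | rfl)
    · simp
    · rfl
  · exact ker_eq

theorem card_center : Nat.card (Subgroup.center ↥Cov) = 2 := by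
  rw [Nat.card_eq_two_iff]
  refine ⟨1, ⟨zC, center_iff.mpr (Or.inr rfl)⟩, fun h => zC_ne (congrArg Subtype.val h).symm, ?_⟩
  ext p
  simp only [Set.mem_insert_iff, Set.mem_singleton_iff, Set.mem_univ, iff_true]
  rcases center_iff.mp p.2 with h | h
  · left; exact Subtype.ext h
  · right; exact Subtype.ext h

/-- An element of the cover with square `zC`. -/
def sqZ : ↥Cov := ⟨_, liftU_mem (i := 0) (j := 1) (k := 2) (l := 3) (by decide) (by decide) (swap_mem (by decide) (by decide))⟩

theorem sqZ_sq : sqZ * sqZ = zC := by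
  apply Subtype.ext
  apply Prod.ext
  · apply Subtype.ext
    show (swap (0 : Fin 8) 1 * swap 2 3) * (swap (0 : Fin 8) 1 * swap 2 3) = 1
    decide
  · apply Units.ext
    show (u 0 1 * u 2 3) * (u 0 1 * u 2 3) = -1
    decide +kernel

/-- An involution outside the centre. -/
def invY : ↥Cov := ⟨_, liftU_mem (i := 0) (j := 1) (k := 2) (l := 3) (by decide) (by decide) (swap_mem (by decide) (by decide))⟩ *
  ⟨_, liftU_mem (i := 4) (j := 5) (k := 6) (l := 7) (by decide) (by decide) (swap_mem (by decide) (by decide))⟩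

theorem no_complement (L : Subgroup ↥Cov) : ¬ (Subgroup.center ↥Cov).IsComplement' L := by
  intro hL
  obtain ⟨⟨c, l⟩, hcl⟩ := hL.2 sqZ
  have hc : (c : ↥Cov) = 1 ∨ (c : ↥Cov) = zC := center_iff.mp c.2
  have hcl' : (c : ↥Cov) * (l : ↥Cov) = sqZ := hcl
  have hll : (l : ↥Cov) * (l : ↥Cov) = zC := by
    rw [← sqZ_sq, ← hcl']
    rcases hc with h | h
    · rw [h, one_mul]
    · rw [h, zC_mul]
      symm
      calc (l : ↥Cov) * zC * (l * zC) = l * (zC * l) * zC := by group
        _ = l * (l * zC) * zC := by rw [zC_mul]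
        _ = l * l * (zC * zC) := by group
        _ = l * l := by rw [zC_sq, mul_one]
  have hzL : zC ∈ L := by
    rw [← hll]
    exact L.mul_mem l.2 l.2
  have hzc : zC ∈ Subgroup.center ↥Cov := center_iff.mpr (Or.inr rfl)
  have := Subgroup.disjoint_def.mp hL.disjoint hzc hzL
  exact zC_ne this

theorem exists_cover : ∃ (H : Type) (_ : Group H) (_ : Finite H), Cfsg.IsNonsplitDoubleCover H (alternatingGroup (Fin 8)) ∧
    ∃ x y : H, x ≠ y ∧ orderOf x = 2 ∧ orderOf y = 2 := by
  refine ⟨↥Cov, inferInstance, inferInstance, ⟨card_center, ?_, no_complement⟩, zC, invY, ?_, ?_, ?_⟩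
  · exact ⟨(QuotientGroup.quotientMulEquivOfEq center_eq_ker).trans
      (QuotientGroup.quotientKerEquivOfSurjective _ covPi_surj)⟩
  · intro h
    have h1 := congrArg (fun p : ↥Cov => ((p.1.1 : alternatingGroup (Fin 8)) : Perm (Fin 8))) h
    have h2 : (1 : Perm (Fin 8)) = (swap (0 : Fin 8) 1 * swap 2 3) * (swap (4 : Fin 8) 5 * swap 6 7) := h1
    revert h2
    decide
  · exact orderOf_eq_prime (by rw [pow_two]; exact zC_sq) zC_ne
  · refine orderOf_eq_prime ?_ ?_
    · rw [pow_two]
      apply Subtype.ext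
      apply Prod.ext
      · apply Subtype.ext
        show ((swap (0 : Fin 8) 1 * swap 2 3) * (swap (4 : Fin 8) 5 * swap 6 7)) * ((swap (0 : Fin 8) 1 * swap 2 3) * (swap (4 : Fin 8) 5 * swap 6 7)) = 1
        decide
      · apply Units.ext
        show ((u 0 1 * u 2 3) * (u 4 5 * u 6 7)) * ((u 0 1 * u 2 3) * (u 4 5 * u 6 7)) = 1
        decide +kernel
    · intro h
      have h1 := congrArg (fun p : ↥Cov => ((p.1.1 : alternatingGroup (Fin 8)) : Perm (Fin 8))) h
      have h2 : (swap (0 : Fin 8) 1 * swap 2 3) * (swap (4 : Fin 8) 5 * swap 6 7) = 1 := h1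
      revert h2
      decide

end Cfsg.Agent.Lib.DoubleCover
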