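import Mathlib
import Cfsg.Agent.Lib.LargeES.OutOrth

/-!
# Double covers of small alternating groups: a retraction by transfer
-/

set_option autoImplicit false

namespace Cfsg.Agent.Lib.DoubleCover

open Equiv Equiv.Perm

section transfer

variable {H : Type*} [Group H] [Finite H]

theorem mem_zpowers_of_sq {a x : H} (ha : a * a = 1) (hx : x ∈ Subgroup.zpowers a) : x = 1 ∨ x = a := by
  obtain ⟨k, rfl⟩ := hx
  have h2 : a ^ (2 : ℤ) = 1 := by rw [zpow_two, ha]
  rcases Int.even_or_odd' k with ⟨m, rfl | rfl⟩
  · left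
    show a ^ (2 * m) = 1
    rw [zpow_mul, h2, one_zpow]
  · right
    show a ^ (2 * m + 1) = a
    rw [zpow_add, zpow_mul, h2, one_zpow, one_mul, zpow_one]

/-- A central involution with an odd index subgroup in which all squares are `1` or `e`: retraction. -/
theorem complement_of_squares {z : H} (hzc : ∀ g, z * g = g * z) (hz2 : z * z = 1) (hz1 : z ≠ 1)
    (S : Subgroup H) (hodd : Odd S.index) (hzS : z ∈ S) (e : H) (heS : e ∈ S) (he2 : e * e = 1) (hez : e ≠ z)
    (hsq : ∀ w ∈ S, w * w = 1 ∨ w * w = e) : ∃ L : Subgroup H, z ∉ L ∧ ∀ g, g ∈ L ∨ g * z ∈ L := by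
  classical
  let e' : S := ⟨e, heS⟩
  let z' : S := ⟨z, hzS⟩
  have he2' : e' * e' = 1 := Subtype.ext he2
  have hz' : z' ∉ Subgroup.zpowers e' := by
    intro h
    rcases mem_zpowers_of_sq he2' h with h1 | h1
    · exact hz1 (congrArg Subtype.val h1)
    · exact hez (congrArg Subtype.val h1).symm
  obtain ⟨M, hM0, hzM, hall⟩ := Cfsg.Agent.Lib.LargeES.OutOrth.exists_hyperplane (Subgroup.zpowers e') z' hz' (by
    intro t
    rcases hsq t t.2 with h1 | h1
    · have : t * t = 1 := Subtype.ext h1
      rw [this]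
      exact Subgroup.one_mem _
    · have : t * t = e' := Subtype.ext h1
      rw [this]
      exact Subgroup.mem_zpowers e')
  have hz'c : ∀ t : S, z' * t = t * z' := fun t => Subtype.ext (hzc t)
  have hz'2 : z' * z' = 1 := Subtype.ext hz2
  let ψ : S →* ℤˣ := MonoidHom.mk' (fun t => if t ∈ M then 1 else -1) (by
    intro a b
    by_cases ha : a ∈ M <;> by_cases hb : b ∈ M
    · simp [ha, hb, M.mul_mem ha hb]
    · have : a * b ∉ M := fun h => hb (by simpa using M.mul_mem (M.inv_mem ha) h)
      simp [ha, hb, this]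
    · have : a * b ∉ M := fun h => ha (by simpa using M.mul_mem h (M.inv_mem hb))
      simp [ha, hb, this]
    · have h1 : a * z' ∈ M := (hall a).resolve_left ha
      have h2 : b * z' ∈ M := (hall b).resolve_left hb
      have h3 : a * b ∈ M := by
        have h4 := M.mul_mem h1 h2
        have e1 : a * z' * (b * z') = a * b := by
          calc a * z' * (b * z') = a * (z' * b) * z' := by group
            _ = a * (b * z') * z' := by rw [hz'c]
            _ = a * b * (z' * z') := by group
            _ = a * b := by rw [hz'2, mul_one]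
        rwa [e1] at h4
      simp [ha, hb, h3])
  have hψ : ψ z' = -1 := by
    show (if z' ∈ M then (1 : ℤˣ) else -1) = -1
    simp [hzM]
  haveI : S.FiniteIndex := inferInstance
  have hτ : ψ.transfer z = -1 := by
    rw [MonoidHom.transfer_eq_pow ψ z]
    · obtain ⟨m, hm⟩ := hodd
      have hpow : z ^ S.index = z := by
        rw [hm, pow_succ, pow_mul, pow_two, hz2, one_pow, one_mul]
      have hh : ∀ (p : z ^ S.index ∈ S), ψ ⟨z ^ S.index, p⟩ = -1 := by
        intro p
        have : (⟨z ^ S.index, p⟩ : S) = z' := Subtype.ext hpow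
        rw [this, hψ]
      exact hh _
    · intro k g₀ _
      have hc : Commute (z ^ k) g₀ := (show Commute z g₀ from hzc g₀).pow_left k
      have h3 : z ^ k * g₀ = g₀ * z ^ k := hc
      rw [mul_assoc, h3]
      group
  refine ⟨ψ.transfer.ker, ?_, ?_⟩
  · rw [MonoidHom.mem_ker, hτ]
    decide
  · intro g
    rcases Int.units_eq_one_or (ψ.transfer g) with h | h
    · left
      exact h
    · right
      rw [MonoidHom.mem_ker, map_mul, h, hτ]
      decide

/-- Using the odd subgroup `S`, the cover splits when the lifts of `S` have few squares. -/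
theorem not_nonsplit_of_squares {z : H} (hzc : ∀ g, z * g = g * z) (hz2 : z * z = 1) (hz1 : z ≠ 1)
    (hcen : ∀ g, g ∈ Subgroup.center H ↔ g = 1 ∨ g = z)
    (S : Subgroup H) (hodd : Odd S.index) (hzS : z ∈ S) (e : H) (heS : e ∈ S) (he2 : e * e = 1) (hez : e ≠ z)
    (hsq : ∀ w ∈ S, w * w = 1 ∨ w * w = e) : ∃ L : Subgroup H, (Subgroup.center H).IsComplement' L := by
  obtain ⟨L, hzL, hL⟩ := complement_of_squares hzc hz2 hz1 S hodd hzS e heS he2 hez hsq
  refine ⟨L, Subgroup.isComplement'_of_disjoint_and_mul_eq_univ ?_ ?_⟩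
  · rw [Subgroup.disjoint_def]
    intro x hx hxL
    rcases (hcen x).mp hx with h | h
    · exact h
    · rw [h] at hxL
      exact absurd hxL hzL
  · ext g
    simp only [Set.mem_mul, Set.mem_univ, iff_true]
    rcases hL g with h | h
    · exact ⟨1, one_mem _, g, h, by simp⟩
    · exact ⟨z, (hcen z).mpr (Or.inr rfl), g * z, h, by rw [hzc, mul_assoc, hz2, mul_one]⟩

end transfer

section conj

theorem exists_conj_invol {n : ℕ} (hn : n ≤ 7) {s t : Perm (Fin n)} (hs : s ∈ alternatingGroup (Fin n))
    (ht : t ∈ alternatingGroup (Fin n)) (hs2 : s * s = 1) (ht2 : t * t = 1) (hs1 : s ≠ 1) (ht1 : t ≠ 1) :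
    ∃ g ∈ alternatingGroup (Fin n), g * s * g⁻¹ = t := by
  have key : ∀ x : Perm (Fin n), x ∈ alternatingGroup (Fin n) → x * x = 1 → x ≠ 1 →
      x.cycleType = Multiset.replicate 2 2 := by
    intro x hx hx2 hx1
    have ho : orderOf x = 2 := orderOf_eq_prime (by rw [pow_two]; exact hx2) hx1
    obtain ⟨k, hk⟩ := cycleType_prime_order (σ := x) (by rw [ho]; exact Nat.prime_two)
    rw [ho] at hk
    have hsum := sum_cycleType_le x
    rw [hk, Multiset.sum_replicate, Fintype.card_fin] at hsum
    have hsign : sign x = 1 := hx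
    rw [sign_of_cycleType, hk, Multiset.sum_replicate, Multiset.card_replicate] at hsign
    have hk2 : k = 1 := by
      have hk3 : k ≤ 2 := by
        simp only [smul_eq_mul] at hsum
        omega
      interval_cases k
      · exact absurd hsign (by decide)
      · rfl
      · exact absurd hsign (by decide)
    rw [hk, hk2]
  have hc : IsConj s t := isConj_iff_cycleType_eq.mpr ((key s hs hs2 hs1).trans (key t ht ht2 ht1).symm)
  obtain ⟨g, hg⟩ := isConj_iff.mp hc
  by_cases hgA : g ∈ alternatingGroup (Fin n)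
  · exact ⟨g, hgA, hg⟩
  · -- correct by a transposition commuting with `s`
    obtain ⟨p, hp⟩ : ∃ p, s p ≠ p := by
      by_contra hcon
      push Not at hcon
      exact hs1 (Equiv.ext hcon)
    have hsw : s * swap p (s p) * s⁻¹ = swap p (s p) := by
      have hss : s (s p) = p := by
        have := congrArg (fun f : Perm (Fin n) => f p) hs2
        simpa using this
      rw [Equiv.mul_swap_eq_swap_mul, mul_assoc, mul_inv_cancel, mul_one, hss, Equiv.swap_comm]
    refine ⟨g * swap p (s p), ?_, ?_⟩
    · rw [mem_alternatingGroup] at hgA ⊢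
      rw [map_mul, sign_swap (Ne.symm hp)]
      rcases Int.units_eq_one_or (sign g) with h | h
      · exact absurd h hgA
      · rw [h]; decide
    · have e1 : swap p (s p) * s = s * swap p (s p) := by
        calc swap p (s p) * s = (s * swap p (s p) * s⁻¹) * s := by rw [hsw]
          _ = s * swap p (s p) := by group
      calc g * swap p (s p) * s * (g * swap p (s p))⁻¹
          = g * (swap p (s p) * s) * (swap p (s p))⁻¹ * g⁻¹ := by group
        _ = g * (s * swap p (s p)) * (swap p (s p))⁻¹ * g⁻¹ := by rw [e1]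
        _ = g * s * g⁻¹ := by group
        _ = t := hg

theorem four_le_of_invol {n : ℕ} (hn : n ≤ 7) {s : Perm (Fin n)} (hs : s ∈ alternatingGroup (Fin n))
    (hs2 : s * s = 1) (hs1 : s ≠ 1) : 4 ≤ n := by
  have ho : orderOf s = 2 := orderOf_eq_prime (by rw [pow_two]; exact hs2) hs1
  obtain ⟨k, hk⟩ := cycleType_prime_order (σ := s) (by rw [ho]; exact Nat.prime_two)
  rw [ho] at hk
  have hsum := sum_cycleType_le s
  rw [hk, Multiset.sum_replicate, Fintype.card_fin] at hsum
  have hsign : sign s = 1 := hs
  rw [sign_of_cycleType, hk, Multiset.sum_replicate, Multiset.card_replicate] at hsign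
  simp only [smul_eq_mul] at hsum
  by_contra hlt
  have hk0 : k = 0 := by omega
  subst hk0
  exact absurd hsign (by decide)

end conj

end Cfsg.Agent.Lib.DoubleCover
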