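import Mathlib
import Cfsg.Agent.Lib.DoubleCover.Small
import Cfsg.Prelude.Def_SporadicB

/-!
# Double covers of the alternating groups of degree at most 7 have a unique involution
-/

set_option autoImplicit false

namespace Cfsg.Agent.Lib.DoubleCover

open Equiv Equiv.Perm

section main

variable {H : Type*} [Group H] [Finite H]

theorem center_two (h : Nat.card (Subgroup.center H) = 2) :
    ∃ z : H, z ≠ 1 ∧ z * z = 1 ∧ (∀ g, z * g = g * z) ∧ ∀ g, g ∈ Subgroup.center H ↔ g = 1 ∨ g = z := by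
  obtain ⟨y, hy1, hy⟩ := (Nat.card_eq_two_iff' (1 : Subgroup.center H)).mp h
  have hy1' : (y : H) ≠ 1 := fun h2 => hy1 (Subtype.ext h2)
  refine ⟨y, hy1', ?_, ?_, ?_⟩
  · have h3 : y ^ 2 = 1 := by
      have := pow_card_eq_one' (x := y)
      rwa [h] at this
    have h4 : (y : H) ^ 2 = 1 := congrArg Subtype.val h3
    rwa [pow_two] at h4
  · intro g
    exact ((Subgroup.mem_center_iff.mp y.2 g)).symm
  · intro g
    constructor
    · intro hg
      by_cases hg1 : (⟨g, hg⟩ : Subgroup.center H) = 1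
      · left
        exact congrArg Subtype.val hg1
      · right
        have := hy _ hg1
        rw [← this]
    · rintro (rfl | rfl)
      · exact one_mem _
      · exact y.2

/-- A generic statement: an odd subgroup of the quotient with the right squares rules out non-central involutions. -/
theorem central_of_data {n : ℕ} (hn : n ≤ 7) (hc : Cfsg.IsNonsplitDoubleCover H (alternatingGroup (Fin n)))
    (S₀ : Subgroup (alternatingGroup (Fin n))) (hodd : Odd S₀.index) (r : alternatingGroup (Fin n)) (hrS : r ∈ S₀)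
    (hr4 : r * r * (r * r) = 1) (hr1 : r = 1 ∨ r * r ≠ 1) (hr : ∀ s ∈ S₀, s * s = 1 ∨ s = r ∨ s = r⁻¹)
    (x : H) (hx : orderOf x = 2) : x ∈ Subgroup.center H := by
  by_contra hxc
  obtain ⟨hcard, ⟨iso⟩, hnc⟩ := hc
  obtain ⟨z, hz1, hz2, hzc, hcen⟩ := center_two hcard
  let π : H →* alternatingGroup (Fin n) := iso.toMonoidHom.comp (QuotientGroup.mk' (Subgroup.center H))
  have hπ : Function.Surjective π := iso.surjective.comp (QuotientGroup.mk'_surjective _)
  have hker : ∀ w, π w = 1 ↔ w ∈ Subgroup.center H := by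
    intro w
    show iso (w : H ⧸ Subgroup.center H) = 1 ↔ _
    rw [map_eq_one_iff iso iso.injective]
    exact QuotientGroup.eq_one_iff w
  have hker2 : ∀ w, π w = 1 → w = 1 ∨ w = z := fun w hw => (hcen w).mp ((hker w).mp hw)
  have hzπ : π z = 1 := (hker z).mpr ((hcen z).mpr (Or.inr rfl))
  -- two lifts
  have hlift : ∀ w w₀, π w = π w₀ → w = w₀ ∨ w = w₀ * z := by
    intro w w₀ h
    have h1 : π (w₀⁻¹ * w) = 1 := by rw [map_mul, map_inv, h, inv_mul_cancel]
    rcases hker2 _ h1 with h2 | h2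
    · left
      calc w = w₀ * (w₀⁻¹ * w) := by group
        _ = w₀ := by rw [h2, mul_one]
    · right
      calc w = w₀ * (w₀⁻¹ * w) := by group
        _ = w₀ * z := by rw [h2]
  have hsq_z : ∀ w, (w * z) * (w * z) = w * w := by
    intro w
    calc (w * z) * (w * z) = w * (z * w) * z := by group
      _ = w * (w * z) * z := by rw [hzc]
      _ = w * w * (z * z) := by group
      _ = w * w := by rw [hz2, mul_one]
  have hx2 : x * x = 1 := by
    have := pow_orderOf_eq_one x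
    rwa [hx, pow_two] at this
  -- the involutions all lift to involutions
  have ht1 : π x ≠ 1 := fun h => hxc ((hker x).mp h)
  have ht2 : π x * π x = 1 := by rw [← map_mul, hx2, map_one]
  have hQ : ∀ s, s * s = 1 → ∀ w, π w = s → w * w = 1 := by
    intro s hs w hw
    by_cases hs1 : s = 1
    · rw [hs1] at hw
      rcases hker2 w hw with rfl | rfl
      · simp
      · exact hz2
    · obtain ⟨g, hgA, hg⟩ := exists_conj_invol hn (π x).2 s.2
        (congrArg Subtype.val ht2) (congrArg Subtype.val hs)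
        (fun h => ht1 (Subtype.ext h)) (fun h => hs1 (Subtype.ext h))
      obtain ⟨g', hg'⟩ := hπ ⟨g, hgA⟩
      have h0 : π (g' * x * g'⁻¹) = s := by
        apply Subtype.ext
        rw [map_mul, map_mul, map_inv, hg', ← hg]
        rfl
      have h00 : (g' * x * g'⁻¹) * (g' * x * g'⁻¹) = 1 := by
        calc (g' * x * g'⁻¹) * (g' * x * g'⁻¹) = g' * (x * x) * g'⁻¹ := by group
          _ = 1 := by rw [hx2]; group
      rcases hlift w (g' * x * g'⁻¹) (by rw [hw, h0]) with h | h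
      · rw [h]; exact h00
      · rw [h, hsq_z]; exact h00
  -- the lift of `r`
  obtain ⟨r', hr'π, hr'1⟩ : ∃ r' : H, π r' = r ∧ (r = 1 → r' = 1) := by
    by_cases hr0 : r = 1
    · exact ⟨1, by rw [map_one, hr0], fun _ => rfl⟩
    · obtain ⟨r', hr'⟩ := hπ r
      exact ⟨r', hr', fun h => absurd h hr0⟩
  have he2 : (r' * r') * (r' * r') = 1 := hQ (r * r) hr4 _ (by rw [map_mul, hr'π])
  have hez : r' * r' ≠ z := by
    intro h
    have h1 : r * r = 1 := by
      rw [← hr'π, ← map_mul, h, hzπ]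
    rcases hr1 with h2 | h2
    · rw [hr'1 h2] at h
      apply hz1
      rw [← h, one_mul]
    · exact h2 h1
  obtain ⟨L, hL⟩ := not_nonsplit_of_squares hzc hz2 hz1 hcen (S₀.comap π)
    (by rw [Subgroup.index_comap_of_surjective _ hπ]; exact hodd) (by
      rw [Subgroup.mem_comap, hzπ]; exact one_mem _) (r' * r') (by
      rw [Subgroup.mem_comap, map_mul, hr'π]; exact S₀.mul_mem hrS hrS) he2 hez (by
      intro w hw
      rcases hr (π w) hw with h | h | h
      · left
        exact hQ _ h w rfl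
      · right
        rcases hlift w r' (by rw [h, hr'π]) with h1 | h1
        · rw [h1]
        · rw [h1, hsq_z]
      · right
        rcases hlift w r'⁻¹ (by rw [h, map_inv, hr'π]) with h1 | h1
        · rw [h1]
          have e1 : r'⁻¹ * r'⁻¹ = (r' * r')⁻¹ := by group
          rw [e1]
          exact inv_eq_of_mul_eq_one_left he2
        · rw [h1, hsq_z]
          have e1 : r'⁻¹ * r'⁻¹ = (r' * r')⁻¹ := by group
          rw [e1]
          exact inv_eq_of_mul_eq_one_left he2)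
  exact hnc L hL

end main

section data

/-- Multiplication tables of explicit subgroups of the alternating group. -/
structure PT {n k : ℕ} (T : Fin k → Fin n → Fin n) (I : Fin k → Fin k) (M : Fin k → Fin k → Fin k)
    (L : Fin k → List (Fin n × Fin n)) : Prop where
  hone : ∃ o, ∀ x, T o x = x
  hl : ∀ i x, T (I i) (T i x) = x
  hr : ∀ i x, T i (T (I i) x) = x
  hm : ∀ i j x, T (M i j) x = T i (T j x)
  hinj : ∀ i j, (∀ x, T i x = T j x) → i = j
  hw : ∀ i x, T i x = ((L i).map fun p => swap p.1 p.2).prod x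
  hne : ∀ i, ∀ p ∈ L i, p.1 ≠ p.2
  hev : ∀ i, Even (L i).length

variable {n k : ℕ} {T : Fin k → Fin n → Fin n} {I : Fin k → Fin k} {M : Fin k → Fin k → Fin k}
  {L : Fin k → List (Fin n × Fin n)}

/-- The permutation at an index. -/
def PT.P (h : PT T I M L) (i : Fin k) : Perm (Fin n) := ⟨T i, T (I i), h.hl i, h.hr i⟩

theorem PT.P_apply (h : PT T I M L) (i : Fin k) (x : Fin n) : h.P i x = T i x := rfl

theorem PT.P_mem (h : PT T I M L) (i : Fin k) : h.P i ∈ alternatingGroup (Fin n) := by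
  have e : h.P i = ((L i).map fun p => swap p.1 p.2).prod := Equiv.ext (h.hw i)
  rw [e, prod_list_swap_mem_alternatingGroup_iff_even_length]
  · simpa using h.hev i
  · intro g hg
    obtain ⟨p, hp, rfl⟩ := List.mem_map.mp hg
    exact ⟨p.1, p.2, h.hne i p hp, rfl⟩

theorem PT.exists_sub (h : PT T I M L) : ∃ S : Subgroup (alternatingGroup (Fin n)), Nat.card S = k ∧
    (∀ g ∈ S, ∃ i, ∀ x, (g : Perm (Fin n)) x = T i x) ∧ (∀ i, ∃ g ∈ S, ∀ x, (g : Perm (Fin n)) x = T i x) := by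
  let S : Subgroup (alternatingGroup (Fin n)) :=
    { carrier := {g | ∃ i, (g : Perm (Fin n)) = h.P i}
      mul_mem' := by
        rintro a b ⟨i, hi⟩ ⟨j, hj⟩
        refine ⟨M i j, Equiv.ext fun x => ?_⟩
        show (a : Perm (Fin n)) ((b : Perm (Fin n)) x) = T (M i j) x
        rw [hi, hj, h.hm]
        rfl
      one_mem' := by
        obtain ⟨o, ho⟩ := h.hone
        exact ⟨o, Equiv.ext fun x => (ho x).symm⟩
      inv_mem' := by
        rintro a ⟨i, hi⟩
        refine ⟨I i, Equiv.ext fun x => ?_⟩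
        show (a : Perm (Fin n))⁻¹ x = T (I i) x
        rw [hi]
        rfl }
  refine ⟨S, ?_, ?_, ?_⟩
  · let f : Fin k → S := fun i => ⟨⟨h.P i, h.P_mem i⟩, ⟨i, rfl⟩⟩
    have hf : Function.Bijective f := by
      constructor
      · intro i j hij
        have h1 : h.P i = h.P j := congrArg (fun g : S => ((g : alternatingGroup (Fin n)) : Perm (Fin n))) hij
        exact h.hinj i j fun x => congrFun (congrArg (fun g : Perm (Fin n) => (g : Fin n → Fin n)) h1) x
      · rintro ⟨g, i, hi⟩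
        exact ⟨i, Subtype.ext (Subtype.ext hi.symm)⟩
    rw [← Nat.card_congr (Equiv.ofBijective f hf), Nat.card_fin]
  · rintro g ⟨i, hi⟩
    exact ⟨i, fun x => by rw [hi]; rfl⟩
  · intro i
    exact ⟨⟨h.P i, h.P_mem i⟩, ⟨i, rfl⟩, fun x => rfl⟩

end data


def T4 : Fin 4 → Fin 4 → Fin 4 :=
  ![![0, 1, 2, 3], ![1, 0, 3, 2], ![2, 3, 0, 1], ![3, 2, 1, 0]]
def I4 : Fin 4 → Fin 4 :=
  ![0, 1, 2, 3]
def M4 : Fin 4 → Fin 4 → Fin 4 :=
  ![![0, 1, 2, 3], ![1, 0, 3, 2], ![2, 3, 0, 1], ![3, 2, 1, 0]]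
def L4 : Fin 4 → List (Fin 4 × Fin 4) :=
  ![[], [(0, 1), (2, 3)], [(0, 2), (1, 3)], [(0, 3), (1, 2)]]

def T5 : Fin 4 → Fin 5 → Fin 5 :=
  ![![0, 1, 2, 3, 4], ![1, 0, 3, 2, 4], ![2, 3, 0, 1, 4], ![3, 2, 1, 0, 4]]
def I5 : Fin 4 → Fin 4 :=
  ![0, 1, 2, 3]
def M5 : Fin 4 → Fin 4 → Fin 4 :=
  ![![0, 1, 2, 3], ![1, 0, 3, 2], ![2, 3, 0, 1], ![3, 2, 1, 0]]
def L5 : Fin 4 → List (Fin 5 × Fin 5) :=
  ![[], [(0, 1), (2, 3)], [(0, 2), (1, 3)], [(0, 3), (1, 2)]]

def T6 : Fin 8 → Fin 6 → Fin 6 :=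
  ![![0, 1, 2, 3, 4, 5], ![2, 3, 1, 0, 5, 4], ![1, 0, 3, 2, 4, 5], ![3, 2, 0, 1, 5, 4], ![1, 0, 2, 3, 5, 4], ![2, 3, 0, 1, 4, 5], ![0, 1, 3, 2, 5, 4], ![3, 2, 1, 0, 4, 5]]
def I6 : Fin 8 → Fin 8 :=
  ![0, 3, 2, 1, 4, 5, 6, 7]
def M6 : Fin 8 → Fin 8 → Fin 8 :=
  ![![0, 1, 2, 3, 4, 5, 6, 7], ![1, 2, 3, 0, 7, 4, 5, 6], ![2, 3, 0, 1, 6, 7, 4, 5], ![3, 0, 1, 2, 5, 6, 7, 4], ![4, 5, 6, 7, 0, 1, 2, 3], ![5, 6, 7, 4, 3, 0, 1, 2], ![6, 7, 4, 5, 2, 3, 0, 1], ![7, 4, 5, 6, 1, 2, 3, 0]]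
def L6 : Fin 8 → List (Fin 6 × Fin 6) :=
  ![[], [(0, 2), (2, 1), (1, 3), (4, 5)], [(0, 1), (2, 3)], [(0, 3), (3, 1), (1, 2), (4, 5)], [(0, 1), (4, 5)], [(0, 2), (1, 3)], [(2, 3), (4, 5)], [(0, 3), (1, 2)]]

def T7 : Fin 8 → Fin 7 → Fin 7 :=
  ![![0, 1, 2, 3, 4, 5, 6], ![2, 3, 1, 0, 5, 4, 6], ![1, 0, 3, 2, 4, 5, 6], ![3, 2, 0, 1, 5, 4, 6], ![1, 0, 2, 3, 5, 4, 6], ![2, 3, 0, 1, 4, 5, 6], ![0, 1, 3, 2, 5, 4, 6], ![3, 2, 1, 0, 4, 5, 6]]
def I7 : Fin 8 → Fin 8 :=
  ![0, 3, 2, 1, 4, 5, 6, 7]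
def M7 : Fin 8 → Fin 8 → Fin 8 :=
  ![![0, 1, 2, 3, 4, 5, 6, 7], ![1, 2, 3, 0, 7, 4, 5, 6], ![2, 3, 0, 1, 6, 7, 4, 5], ![3, 0, 1, 2, 5, 6, 7, 4], ![4, 5, 6, 7, 0, 1, 2, 3], ![5, 6, 7, 4, 3, 0, 1, 2], ![6, 7, 4, 5, 2, 3, 0, 1], ![7, 4, 5, 6, 1, 2, 3, 0]]
def L7 : Fin 8 → List (Fin 7 × Fin 7) :=
  ![[], [(0, 2), (2, 1), (1, 3), (4, 5)], [(0, 1), (2, 3)], [(0, 3), (3, 1), (1, 2), (4, 5)], [(0, 1), (4, 5)], [(0, 2), (1, 3)], [(2, 3), (4, 5)], [(0, 3), (1, 2)]]


theorem PT4 : PT T4 I4 M4 L4 := by constructor <;> decide +kernel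
theorem PT5 : PT T5 I5 M5 L5 := by constructor <;> decide +kernel
theorem PT6 : PT T6 I6 M6 L6 := by constructor <;> decide +kernel
theorem PT7 : PT T7 I7 M7 L7 := by constructor <;> decide +kernel

/-- Data for the Klein-four case. -/
theorem klein_case {n : ℕ} (hn : n ≤ 7) {H : Type*} [Group H] [Finite H]
    (hc : Cfsg.IsNonsplitDoubleCover H (alternatingGroup (Fin n)))
    {T : Fin 4 → Fin n → Fin n} {I : Fin 4 → Fin 4} {M : Fin 4 → Fin 4 → Fin 4} {L : Fin 4 → List (Fin n × Fin n)}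
    (h : PT T I M L) (hsq : ∀ i x, T i (T i x) = x) (hind : Odd (Nat.card (alternatingGroup (Fin n)) / 4))
    (x : H) (hx : orderOf x = 2) : x ∈ Subgroup.center H := by
  obtain ⟨S, hS, hS1, -⟩ := h.exists_sub
  refine central_of_data hn hc S ?_ 1 (one_mem _) (by simp) (Or.inl rfl) ?_ x hx
  · have h2 := Subgroup.card_mul_index S
    rw [hS] at h2
    rw [← h2, Nat.mul_div_cancel_left _ (by norm_num)] at hind
    exact hind
  · intro s hs
    left
    obtain ⟨i, hi⟩ := hS1 s hs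
    apply Subtype.ext
    apply Equiv.ext
    intro y
    show (s : Perm (Fin n)) ((s : Perm (Fin n)) y) = y
    rw [hi, hi, hsq]

/-- Data for the dihedral case. -/
theorem dihedral_case {n : ℕ} (hn : n ≤ 7) {H : Type*} [Group H] [Finite H]
    (hc : Cfsg.IsNonsplitDoubleCover H (alternatingGroup (Fin n)))
    {T : Fin 8 → Fin n → Fin n} {I : Fin 8 → Fin 8} {M : Fin 8 → Fin 8 → Fin 8} {L : Fin 8 → List (Fin n × Fin n)}
    (h : PT T I M L) (h4 : ∀ y, T 1 (T 1 (T 1 (T 1 y))) = y) (h2 : ∃ y, T 1 (T 1 y) ≠ y)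
    (h13 : ∀ y, T 3 (T 1 y) = y)
    (hsq : ∀ i, (∀ y, T i (T i y) = y) ∨ i = 1 ∨ i = 3) (hind : Odd (Nat.card (alternatingGroup (Fin n)) / 8))
    (x : H) (hx : orderOf x = 2) : x ∈ Subgroup.center H := by
  obtain ⟨S, hS, hS1, hS2⟩ := h.exists_sub
  obtain ⟨r, hrS, hr⟩ := hS2 1
  refine central_of_data hn hc S ?_ r hrS ?_ (Or.inr ?_) ?_ x hx
  · have h2 := Subgroup.card_mul_index S
    rw [hS] at h2
    rw [← h2, Nat.mul_div_cancel_left _ (by norm_num)] at hind
    exact hind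
  · apply Subtype.ext
    apply Equiv.ext
    intro y
    show (r : Perm (Fin n)) ((r : Perm (Fin n)) ((r : Perm (Fin n)) ((r : Perm (Fin n)) y))) = y
    rw [hr, hr, hr, hr, h4]
  · intro h3
    obtain ⟨y, hy⟩ := h2
    apply hy
    have h5 : (r : Perm (Fin n)) ((r : Perm (Fin n)) y) = y := by
      have := congrArg (fun g : alternatingGroup (Fin n) => (g : Perm (Fin n)) y) h3
      exact this
    rwa [hr, hr] at h5
  · intro s hs
    obtain ⟨i, hi⟩ := hS1 s hs
    rcases hsq i with h3 | rfl | rfl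
    · left
      apply Subtype.ext
      apply Equiv.ext
      intro y
      show (s : Perm (Fin n)) ((s : Perm (Fin n)) y) = y
      rw [hi, hi, h3]
    · right; left
      apply Subtype.ext
      apply Equiv.ext
      intro y
      rw [hi, hr]
    · right; right
      -- `s * r = 1`
      have h5 : s * r = 1 := by
        apply Subtype.ext
        apply Equiv.ext
        intro y
        show (s : Perm (Fin n)) ((r : Perm (Fin n)) y) = y
        rw [hi, hr, h13]
      exact eq_inv_of_mul_eq_one_left h5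

/-- The first half: for `n ≤ 7` involutions in a non-split double cover are central. -/
theorem involution_unique (n : ℕ) (H : Type) [Group H] [Finite H] (hn : n ≤ 7)
    (hc : Cfsg.IsNonsplitDoubleCover H (alternatingGroup (Fin n))) (x : H) (hx : orderOf x = 2) :
    x ∈ Subgroup.center H := by
  by_contra hxc
  have hc' := hc
  obtain ⟨hcard, ⟨iso⟩, hnc⟩ := hc
  have hx2 : x * x = 1 := by
    have := pow_orderOf_eq_one x
    rwa [hx, pow_two] at this
  let t : alternatingGroup (Fin n) := iso (x : H ⧸ Subgroup.center H)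
  have ht2 : t * t = 1 := by
    show iso (x : H ⧸ Subgroup.center H) * iso (x : H ⧸ Subgroup.center H) = 1
    rw [← map_mul, ← QuotientGroup.mk_mul, hx2]
    simp
  have ht1 : t ≠ 1 := by
    intro h
    have h1 : (x : H ⧸ Subgroup.center H) = 1 := by
      apply iso.injective
      rw [map_one]
      exact h
    exact hxc ((QuotientGroup.eq_one_iff x).mp h1)
  have h4 : 4 ≤ n := four_le_of_invol hn t.2 (congrArg Subtype.val ht2) (fun h => ht1 (Subtype.ext h))
  apply hxc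
  have hcard4 : Nat.card (alternatingGroup (Fin 4)) = 12 := by
    rw [nat_card_alternatingGroup]; simp [Nat.factorial]
  have hcard5 : Nat.card (alternatingGroup (Fin 5)) = 60 := by
    rw [nat_card_alternatingGroup]; simp [Nat.factorial]
  have hcard6 : Nat.card (alternatingGroup (Fin 6)) = 360 := by
    rw [nat_card_alternatingGroup]; simp [Nat.factorial]
  have hcard7 : Nat.card (alternatingGroup (Fin 7)) = 2520 := by
    rw [nat_card_alternatingGroup]; simp [Nat.factorial]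
  interval_cases n
  · exact klein_case (by norm_num) hc' PT4 (by decide +kernel) (by rw [hcard4]; decide) x hx
  · exact klein_case (by norm_num) hc' PT5 (by decide +kernel) (by rw [hcard5]; decide) x hx
  · exact dihedral_case (by norm_num) hc' PT6 (by decide +kernel) (by decide +kernel) (by decide +kernel)
      (by decide +kernel) (by rw [hcard6]; decide) x hx
  · exact dihedral_case (by norm_num) hc' PT7 (by decide +kernel) (by decide +kernel) (by decide +kernel)
      (by decide +kernel) (by rw [hcard7]; decide) x hx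

end Cfsg.Agent.Lib.DoubleCover
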